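import Cfsg.Agent.Lib.H54.RA0

/-! S3330, piece P6 (helper23): a search in `Perm (Fin 6)` with permutations coded as numbers in base 8. -/

set_option autoImplicit false
set_option maxRecDepth 100000

namespace H23.RP6

open Equiv Subgroup H54.RA

/-- the code of a permutation -/
def enc (x : Perm (Fin 6)) : ℕ :=
  (x 0).val + 8 * (x 1).val + 64 * (x 2).val + 512 * (x 3).val + 4096 * (x 4).val + 32768 * (x 5).val

/-- application -/
def ap (c i : ℕ) : ℕ := (c / 8 ^ i) % 8

theorem ap_enc (x : Perm (Fin 6)) (i : Fin 6) : ap (enc x) i = (x i).val := by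
  have h0 := (x 0).isLt
  have h1 := (x 1).isLt
  have h2 := (x 2).isLt
  have h3 := (x 3).isLt
  have h4 := (x 4).isLt
  have h5 := (x 5).isLt
  have e0 : ap (enc x) 0 = (x 0).val := by simp only [ap, enc]; norm_num; omega
  have e1 : ap (enc x) 1 = (x 1).val := by simp only [ap, enc]; norm_num; omega
  have e2 : ap (enc x) 2 = (x 2).val := by simp only [ap, enc]; norm_num; omega
  have e3 : ap (enc x) 3 = (x 3).val := by simp only [ap, enc]; norm_num; omega
  have e4 : ap (enc x) 4 = (x 4).val := by simp only [ap, enc]; norm_num; omega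
  have e5 : ap (enc x) 5 = (x 5).val := by simp only [ap, enc]; norm_num; omega
  fin_cases i
  exacts [e0, e1, e2, e3, e4, e5]

/-- evaluation of a word -/
def wv : List ℕ → ℕ → ℕ
  | [], i => i
  | c :: cs, i => ap c (wv cs i)

theorem wv_spec (l : List (Perm (Fin 6))) (i : Fin 6) : wv (l.map enc) i = (l.prod i).val := by
  induction l with
  | nil => rfl
  | cons x l ih => rw [List.map_cons, wv, ih, ap_enc, List.prod_cons, Perm.mul_apply]

/-- equality of words -/
def eqw (l l' : List ℕ) : Bool :=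
  wv l 0 == wv l' 0 && (wv l 1 == wv l' 1 && (wv l 2 == wv l' 2 && (wv l 3 == wv l' 3 &&
    (wv l 4 == wv l' 4 && wv l 5 == wv l' 5))))

theorem eqw_spec (l l' : List (Perm (Fin 6))) : eqw (l.map enc) (l'.map enc) = true ↔ l.prod = l'.prod := by
  have h := fun i => wv_spec l i
  have h' := fun i => wv_spec l' i
  simp only [eqw, Bool.and_eq_true, beq_iff_eq]
  constructor
  · rintro ⟨h0, h1, h2, h3, h4, h5⟩
    ext i
    have := h i
    have := h' i
    fin_cases i <;> simp_all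
  · intro hh
    have e := fun i => (h i).trans ((congrArg (fun x : Perm (Fin 6) => (x i).val) hh).trans (h' i).symm)
    exact ⟨e 0, e 1, e 2, e 3, e 4, e 5⟩

/-- the codes of the involutions -/
def I6 : List ℕ := [153224, 178312, 117384, 181448, 173832, 83784, 181840, 180888, 169632, 50856, 181889, 181770, 180363, 165516, 18061, 152776, 109320, 80200, 153168, 178256, 117328, 152216, 172824, 82776, 105120, 169184, 71520, 47272, 50408, 42792, 153217, 178305, 117377, 181441, 173825, 83777, 153098, 178186, 117258, 180762, 169506, 50730, 151691, 172299, 82251, 180307, 168099, 49323, 101004, 165068, 67404, 165460, 164508, 34476, 14477, 17613, 9997, 18005, 17053, 5797, 152769, 109313, 80193, 152090, 104994, 47146, 151635, 69987, 41259, 100948, 66396, 34028, 14421, 8989, 5349]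

/-- conjugators -/
def J6 : List (ℕ × List ℕ) := [(153224, [4, 11]), (178312, [3, 10]), (117384, [3, 11]), (181448, [2, 9]), (173832, [2, 10]), (83784, [2, 11]), (181840, [2]), (180888, [3]), (169632, [4]), (50856, [5]), (181889, []), (181770, [8]), (180363, [9]), (165516, [10]), (18061, [11]), (152776, [4, 11]), (109320, [2, 5, 10]), (80200, [2, 4, 11]), (153168, [2, 4, 23]), (178256, [2, 4]), (117328, [2, 5]), (152216, [3, 4, 17]), (172824, [3, 4]), (82776, [3, 5]), (105120, [4, 17]), (169184, [4]), (71520, [4, 23]), (47272, [5, 16]), (50408, [5]), (42792, [5, 22]), (153217, [16, 23]), (178305, [16]), (117377, [17]), (181441, []), (173825, [22]), (83777, [23]), (153098, [3, 10, 23]), (178186, [3, 10]), (117258, [3, 11]), (180762, [3]), (169506, [3, 22]), (50730, [3, 23]), (151691, [2, 10, 17]), (172299, [2, 10]), (82251, [2, 11]), (180307, [2]), (168099, [2, 16]), (49323, [2, 17]), (101004, [10, 17]), (165068, [10]), (67404, [10, 23]), (165460, [2, 22]),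 (164508, [3, 16]), (34476, [2, 17, 22]), (14477, [11, 16]), (17613, [11]), (9997, [11, 22]), (18005, [2, 23]), (17053, [3, 17]), (5797, [2, 16, 23]), (152769, []), (109313, [17]), (80193, [16]), (152090, [3]), (104994, [3, 11]), (47146, [3, 10]), (151635, [2]), (69987, [2, 11]), (41259, [2, 10]), (100948, [2, 5]), (66396, [3, 5]), (34028, [5]), (14421, [2, 4]), (8989, [3, 4]), (5349, [4])]

/-- a transposition -/
def sw (k : ℕ) : Perm (Fin 6) := swap (Fin.ofNat 6 (k / 6)) (Fin.ofNat 6 (k % 6))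

/-- product of transpositions -/
def G (l : List ℕ) : Perm (Fin 6) := (l.map sw).prod

/-- lookup -/
def fnd (c : ℕ) : List ℕ := (J6.lookup c).getD []

/-- representatives -/
def R6 : List ℕ := [181889, 181441, 152769]

/-- cube test -/
def cub (l : List ℕ) : Bool := eqw (l ++ (l ++ l)) []
/-- the conclusion -/
def conB (x1 x2 a : ℕ) : Bool :=
  (eqw [a, x2] [x2, a] && (cub [x1, a, x1, x2] && !(eqw [x1, a, x1, x2] []))) ||
  (eqw [x1, a, x1, x2] [x2, x1, a, x1] && (cub [a, x2] && !(eqw [a, x2] [])))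
/-- the search -/
def srch (x4 : ℕ) : Bool :=
  I6.all fun x3 => eqw [x3] [x4] || (!(cub [x3, x4]) ||
    I6.all fun x2 => !(eqw [x2, x4] [x4, x2]) || (!(cub [x2, x3]) ||
      I6.all fun x1 => !(eqw [x1, x3] [x3, x1]) || (!(eqw [x1, x4] [x4, x1]) || (!(cub [x1, x2]) ||
        I6.all fun a => eqw [a] [x1] || (!(eqw [a, x3] [x3, a]) || (!(eqw [a, x4] [x4, a]) || (!(cub [a, x1]) ||
          conB x1 x2 a)))))))

theorem srch_all : ∀ x ∈ R6, srch x = true := by decide +kernel

theorem mem_all : ∀ x : Perm (Fin 6), x * x = 1 → x ≠ 1 →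
    enc x ∈ I6 ∧ enc (G (fnd (enc x)) * x * (G (fnd (enc x)))⁻¹) ∈ R6 := by decide +kernel

theorem srch_spec {x4 : ℕ} (h : srch x4 = true) {x1 x2 x3 a : ℕ}
    (m1 : x1 ∈ I6) (m2 : x2 ∈ I6) (m3 : x3 ∈ I6) (ma : a ∈ I6)
    (n34 : ¬ eqw [x3] [x4] = true) (h34 : cub [x3, x4] = true)
    (h24 : eqw [x2, x4] [x4, x2] = true) (h23 : cub [x2, x3] = true)
    (h13 : eqw [x1, x3] [x3, x1] = true) (h14 : eqw [x1, x4] [x4, x1] = true) (h12 : cub [x1, x2] = true)
    (na1 : ¬ eqw [a] [x1] = true) (ha3 : eqw [a, x3] [x3, a] = true) (ha4 : eqw [a, x4] [x4, a] = true)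
    (ha1 : cub [a, x1] = true) : conB x1 x2 a = true := by
  simp only [srch, List.all_eq_true, Bool.or_eq_true, Bool.not_eq_true'] at h
  have nf : ∀ {b : Bool}, b = true → ¬ b = false := fun h h' => by rw [h] at h'; exact Bool.noConfusion h'
  have h3 := ((h x3 m3).resolve_left n34).resolve_left (nf h34)
  have h2 := ((h3 x2 m2).resolve_left (nf h24)).resolve_left (nf h23)
  have h1 := (((h2 x1 m1).resolve_left (nf h13)).resolve_left (nf h14)).resolve_left (nf h12)
  exact ((((h1 a ma).resolve_left na1).resolve_left (nf ha3)).resolve_left (nf ha4)).resolve_left (nf ha1)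

theorem eqw2 {x y x' y' : Perm (Fin 6)} : eqw [enc x, enc y] [enc x', enc y'] = true ↔ x * y = x' * y' := by
  have := eqw_spec [x, y] [x', y']
  simpa using this

theorem eqw1 {x y : Perm (Fin 6)} : eqw [enc x] [enc y] = true ↔ x = y := by
  have := eqw_spec [x] [y]
  simpa using this

theorem cub2 {x y : Perm (Fin 6)} : cub [enc x, enc y] = true ↔ (x * y) ^ 3 = 1 := by
  have := eqw_spec ([x, y] ++ ([x, y] ++ [x, y])) []
  simp only [List.map_append, List.map_cons, List.map_nil, List.prod_append, List.prod_cons, List.prod_nil,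
    mul_one] at this
  rw [cub, this, pow_succ', pow_two, mul_assoc]

theorem conB_spec {x1 x2 a : Perm (Fin 6)} (h : conB (enc x1) (enc x2) (enc a) = true) :
    (a * x2 = x2 * a ∧ (x1 * a * x1 * x2) ^ 3 = 1 ∧ x1 * a * x1 * x2 ≠ 1) ∨
    (x1 * a * x1 * x2 = x2 * (x1 * a * x1) ∧ (a * x2) ^ 3 = 1 ∧ a * x2 ≠ 1) := by
  have e4 := eqw_spec [x1, a, x1, x2] []
  have e4' := eqw_spec [x1, a, x1, x2] [x2, x1, a, x1]
  have e2 := eqw_spec [a, x2] []
  have c4 := eqw_spec ([x1, a, x1, x2] ++ ([x1, a, x1, x2] ++ [x1, a, x1, x2])) []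
  simp only [List.map_append, List.map_cons, List.map_nil, List.prod_append, List.prod_cons, List.prod_nil,
    mul_one] at e4 e4' e2 c4
  simp only [conB, Bool.or_eq_true, Bool.and_eq_true, Bool.not_eq_true', eqw2, cub2] at h
  rcases h with ⟨h1, h2, h3⟩ | ⟨h1, h2, h3⟩
  · refine Or.inl ⟨h1, ?_, ?_⟩
    · rw [cub, c4] at h2
      rw [pow_succ', pow_two]
      simpa only [mul_assoc] using h2
    · intro h
      have : eqw [enc x1, enc a, enc x1, enc x2] [] = true := e4.2 (by simpa only [mul_assoc] using h)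
      rw [this] at h3
      exact Bool.noConfusion h3
  · refine Or.inr ⟨?_, h2, ?_⟩
    · have := e4'.1 h1
      simpa only [mul_assoc] using this
    · intro h
      have : eqw [enc a, enc x2] [] = true := e2.2 h
      rw [this] at h3
      exact Bool.noConfusion h3

theorem core {x1 x2 x3 x4 a : Perm (Fin 6)}
    (i1 : x1 * x1 = 1) (n1 : x1 ≠ 1) (i2 : x2 * x2 = 1) (n2 : x2 ≠ 1) (i3 : x3 * x3 = 1) (n3 : x3 ≠ 1)
    (i4 : x4 * x4 = 1) (n4 : x4 ≠ 1) (ia : a * a = 1) (na : a ≠ 1)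
    (n34 : x3 ≠ x4) (h34 : (x3 * x4) ^ 3 = 1)
    (h24 : x2 * x4 = x4 * x2) (h23 : (x2 * x3) ^ 3 = 1)
    (h13 : x1 * x3 = x3 * x1) (h14 : x1 * x4 = x4 * x1) (h12 : (x1 * x2) ^ 3 = 1)
    (na1 : a ≠ x1) (ha3 : a * x3 = x3 * a) (ha4 : a * x4 = x4 * a) (ha1 : (a * x1) ^ 3 = 1) :
    (a * x2 = x2 * a ∧ (x1 * a * x1 * x2) ^ 3 = 1 ∧ x1 * a * x1 * x2 ≠ 1) ∨
    (x1 * a * x1 * x2 = x2 * (x1 * a * x1) ∧ (a * x2) ^ 3 = 1 ∧ a * x2 ≠ 1) := by
  obtain ⟨-, hp2⟩ := mem_all x4 i4 n4
  generalize G (fnd (enc x4)) = g at hp2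
  set c : Perm (Fin 6) →* Perm (Fin 6) := (MulAut.conj g).toMonoidHom with hc
  have hcinj : Function.Injective c := (MulAut.conj g).injective
  have hcx : ∀ x, c x = g * x * g⁻¹ := fun x => by simp [hc]
  have hs : srch (enc (c x4)) = true := by
    rw [hcx]
    exact srch_all _ hp2
  have inI : ∀ x : Perm (Fin 6), x * x = 1 → x ≠ 1 → enc (c x) ∈ I6 := fun x h1 h2 =>
    (mem_all _ (by rw [← map_mul, h1, map_one]) (fun h => h2 (hcinj (by rw [h, map_one])))).1
  have cu : ∀ x y : Perm (Fin 6), (x * y) ^ 3 = 1 → cub [enc (c x), enc (c y)] = true := fun x y h => by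
    rw [cub2, ← map_mul, ← map_pow, h, map_one]
  have cm : ∀ x y : Perm (Fin 6), x * y = y * x → eqw [enc (c x), enc (c y)] [enc (c y), enc (c x)] = true :=
    fun x y h => by rw [eqw2, ← map_mul, h, map_mul]
  have cn : ∀ x y : Perm (Fin 6), x ≠ y → ¬ eqw [enc (c x)] [enc (c y)] = true := fun x y h h' =>
    h (hcinj (eqw1.1 h'))
  have key := conB_spec (srch_spec hs (inI _ i1 n1) (inI _ i2 n2) (inI _ i3 n3) (inI _ ia na)
    (cn _ _ n34) (cu _ _ h34) (cm _ _ h24) (cu _ _ h23) (cm _ _ h13) (cm _ _ h14) (cu _ _ h12)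
    (cn _ _ na1) (cm _ _ ha3) (cm _ _ ha4) (cu _ _ ha1))
  simp only [← map_mul, ← map_pow] at key
  rcases key with ⟨h1, h2, h3⟩ | ⟨h1, h2, h3⟩
  · exact Or.inl ⟨hcinj h1, hcinj (by rw [h2, map_one]), fun h => h3 (by rw [h, map_one])⟩
  · exact Or.inr ⟨hcinj h1, hcinj (by rw [h2, map_one]), fun h => h3 (by rw [h, map_one])⟩

theorem p6 (φ : Perm (Fin 5) →* Perm (Fin 6)) (hφ : Function.Injective φ) (a : Perm (Fin 6)) (ha : a * a = 1)
    (h1 : a * φ (swap 1 2) = φ (swap 1 2) * a) (h2 : a * φ (swap 2 3) = φ (swap 2 3) * a) (h3 : (a * φ t5) ^ 3 = 1)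
    (hne : a ≠ φ t5) (j : Fin 5) (hj : j = 1 ∨ j = 3) :
    (a * φ (swap j 4) = φ (swap j 4) * a ∧ ((φ t5 * a * φ t5) * φ (swap j 4)) ^ 3 = 1 ∧
      (φ t5 * a * φ t5) * φ (swap j 4) ≠ 1) ∨
    ((φ t5 * a * φ t5) * φ (swap j 4) = φ (swap j 4) * (φ t5 * a * φ t5) ∧ (a * φ (swap j 4)) ^ 3 = 1 ∧
      a * φ (swap j 4) ≠ 1) := by
  have hs : ∀ x : Perm (Fin 5), x * x = 1 → φ x * φ x = 1 := fun x h => by rw [← map_mul, h, map_one]
  have hn : ∀ x : Perm (Fin 5), x ≠ 1 → φ x ≠ 1 := fun x h h' => h (hφ (by rw [h', map_one]))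
  have hq : ∀ x y : Perm (Fin 5), (x * y) ^ 3 = 1 → (φ x * φ y) ^ 3 = 1 := fun x y h => by
    rw [← map_mul, ← map_pow, h, map_one]
  have hc : ∀ x y : Perm (Fin 5), x * y = y * x → φ x * φ y = φ y * φ x := fun x y h => by
    rw [← map_mul, h, map_mul]
  have ht1 : t5 * t5 = 1 := by decide +kernel
  have ht2 : t5 ≠ 1 := by decide +kernel
  have hna : a ≠ 1 := by
    rintro rfl
    rw [one_mul, pow_succ, pow_two, hs _ ht1, one_mul] at h3
    exact hn _ ht2 h3
  rcases hj with rfl | rfl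
  · exact core (x3 := φ (swap 1 2)) (x4 := φ (swap 2 3)) (hs _ ht1) (hn _ ht2) (hs _ (by decide +kernel))
      (hn _ (by decide +kernel)) (hs _ (by decide +kernel)) (hn _ (by decide +kernel)) (hs _ (by decide +kernel))
      (hn _ (by decide +kernel)) ha hna (fun h => absurd (hφ h) (by decide +kernel)) (hq _ _ (by decide +kernel))
      (hc _ _ (by decide +kernel)) (hq _ _ (by decide +kernel)) (hc _ _ (by decide +kernel))
      (hc _ _ (by decide +kernel)) (hq _ _ (by decide +kernel)) hne h1 h2 h3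
  · exact core (x3 := φ (swap 2 3)) (x4 := φ (swap 1 2)) (hs _ ht1) (hn _ ht2) (hs _ (by decide +kernel))
      (hn _ (by decide +kernel)) (hs _ (by decide +kernel)) (hn _ (by decide +kernel)) (hs _ (by decide +kernel))
      (hn _ (by decide +kernel)) ha hna (fun h => absurd (hφ h) (by decide +kernel)) (hq _ _ (by decide +kernel))
      (hc _ _ (by decide +kernel)) (hq _ _ (by decide +kernel)) (hc _ _ (by decide +kernel))
      (hc _ _ (by decide +kernel)) (hq _ _ (by decide +kernel)) hne h2 h1 h3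

end H23.RP6
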